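import Cfsg.Agent.H100.GLTwoLower
import Cfsg.Agent.ClosedTwo.PspWr
import Cfsg.Agent.ClassicalGeometry.SympBasic
import Cfsg.Agent.ClassicalGeometry.PSL2Basic
import Cfsg.Agent.LieClassical.SympCount

/-!
# The normal 2-rank of a Sylow 2-subgroup of `Sp_2n(q)`, `q` odd (helper100)

* `card_elemAb_le` : an elementary abelian 2-subgroup of `Sp_2n(F)`, `2 ≠ 0`, has order at most `2 ^ n`;
* `two_part_sp` : the 2-part of the order of `Sp_2n(q)`;
* `lower_sp` : the Sylow 2-subgroups have a normal elementary abelian subgroup of order `2 ^ n`.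
-/

set_option autoImplicit false

namespace Cfsg.Agent.H100.SpTwo

open Module Cfsg Cfsg.Agent.H100.Diag Cfsg.Agent.H100.NormRank Cfsg.Agent.H100.GLTwo
open Cfsg.Agent.ClassicalGeometry.SympBasic Cfsg.Agent.ClosedTwo.Psp Cfsg.Agent.HoltZ.Psp
open Cfsg.Agent.FooteOdd (two_of_odd)
open Cfsg.Agent.FooteOdd.Num

variable {F : Type*} [Field F] {n : ℕ}

/-- The order of a finite set of diagonal operators with entries `± 1`. -/
theorem card_le_of_injective {K : Type*} [Field K] {V : Type*} [AddCommGroup V] [Module K V] {E : Type*} [Finite E]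
    (ρ : E → (V →ₗ[K] V)) (hρ : Function.Injective ρ)
    {n : ℕ} (b : Basis (Fin n) K V) (c : Fin n → E → K) (hc : ∀ e j, ρ e (b j) = c j e • b j)
    (hc1 : ∀ e j, c j e = 1 ∨ c j e = -1) [DecidableEq (E → K)] :
    Nat.card E ≤ 2 ^ (Finset.image c Finset.univ).card := by
  classical
  let g : E → (↥(Finset.image c Finset.univ) → Bool) := fun e χ => decide (χ.1 e = 1)
  have hg : Function.Injective g := by
    intro e e' h
    apply hρ
    have h1 : ∀ j, c j e = c j e' := by
      intro j
      have h2 := congrFun h ⟨c j, Finset.mem_image_of_mem _ (Finset.mem_univ j)⟩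
      have h3 : (c j e = 1) ↔ (c j e' = 1) := by simpa [g] using h2
      rcases hc1 e j with h4 | h4
      · rw [h4, (h3.1 h4)]
      · rcases hc1 e' j with h5 | h5
        · rw [h5, (h3.2 h5)]
        · rw [h4, h5]
    apply b.ext
    intro j
    rw [hc e j, hc e' j, h1 j]
  have h1 := Nat.card_le_card_of_injective g hg
  rwa [Nat.card_fun, Nat.card_eq_fintype_card (α := Bool), Fintype.card_bool,
    Nat.card_eq_fintype_card (α := ↥(Finset.image c Finset.univ)), Fintype.card_coe] at h1

/-- **Elementary abelian 2-subgroups of the symplectic groups.** -/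
theorem card_elemAb_le (two : (2 : F) ≠ 0) (E : Subgroup (Matrix.symplecticGroup (Fin n) F)) [Finite E]
    (h1 : ∀ a ∈ E, ∀ b ∈ E, a * b = b * a) (h2 : ∀ a ∈ E, a * a = 1) : Nat.card E ≤ 2 ^ n := by
  classical
  let ρ : E → ((Fin n ⊕ Fin n → F) →ₗ[F] (Fin n ⊕ Fin n → F)) := fun e =>
    Matrix.mulVecLin ((e : Matrix.symplecticGroup (Fin n) F) : Matrix (Fin n ⊕ Fin n) (Fin n ⊕ Fin n) F)
  have hρa : ∀ (e : E) v, ρ e v = ((e : Matrix.symplecticGroup (Fin n) F) : Matrix (Fin n ⊕ Fin n) (Fin n ⊕ Fin n) F).mulVec v :=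
    fun _ _ => rfl
  have hρ : Function.Injective ρ := by
    intro e e' h
    apply Subtype.ext
    exact ext_mulVec fun v => LinearMap.congr_fun h v
  have hdim : finrank F (Fin n ⊕ Fin n → F) = 2 * n := by
    rw [finrank_fintype_fun_eq_card]
    simp [two_mul]
  obtain ⟨b, hb⟩ := exists_basis two (κ := E) ρ
    (fun i j v => by
      rw [hρa, hρa, hρa, hρa, Matrix.mulVec_mulVec, Matrix.mulVec_mulVec]
      congr 1
      exact congrArg Subtype.val (h1 i.1 i.2 j.1 j.2))
    (fun i v => by
      rw [hρa, hρa, Matrix.mulVec_mulVec]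
      have : ((i : Matrix.symplecticGroup (Fin n) F) : Matrix (Fin n ⊕ Fin n) (Fin n ⊕ Fin n) F) *
        ((i : Matrix.symplecticGroup (Fin n) F) : Matrix (Fin n ⊕ Fin n) (Fin n ⊕ Fin n) F) = 1 :=
          congrArg Subtype.val (h2 i.1 i.2)
      rw [this, Matrix.one_mulVec]) hdim
  let c : Fin (2 * n) → E → F := fun j e => if ρ e (b j) = b j then 1 else -1
  have hc : ∀ e j, ρ e (b j) = c j e • b j := by
    intro e j
    simp only [c]
    split_ifs with h
    · rw [one_smul]; exact h
    · rw [neg_one_smul]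
      exact (hb e j).resolve_left h
  have hc1 : ∀ e j, c j e = 1 ∨ c j e = -1 := by
    intro e j
    simp only [c]
    split_ifs
    · exact Or.inl rfl
    · exact Or.inr rfl
  have hne : (1 : F) ≠ -1 := by
    intro h
    apply two
    have : (1 : F) + 1 = 0 := by nth_rewrite 1 [h]; exact neg_add_cancel 1
    rw [← one_add_one_eq_two]
    exact this
  have horth : ∀ j l, c l ≠ c j → sympForm n F (b j) (b l) = 0 := by
    intro j l hjl
    obtain ⟨e, he⟩ := Function.ne_iff.1 hjl
    have h3 := sympForm_mulVec (e : Matrix.symplecticGroup (Fin n) F).2 (b j) (b l)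
    rw [← hρa, ← hρa, hc, hc, sympForm_smul_left, sympForm_smul_right] at h3
    have h4 : c j e * c l e = -1 := by
      rcases hc1 e j with h5 | h5 <;> rcases hc1 e l with h6 | h6
      · exact absurd (h6.trans h5.symm) he
      · rw [h5, h6]; ring
      · rw [h5, h6]; ring
      · exact absurd (h6.trans h5.symm) he
    have h5 : (2 : F) * sympForm n F (b j) (b l) = 0 := by
      linear_combination (-1 : F) * h3 + sympForm n F (b j) (b l) * h4
    exact (mul_eq_zero.1 h5).resolve_left two
  have h3 : ∀ j, ∃ l, l ≠ j ∧ c l = c j := by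
    intro j
    by_contra hno
    push Not at hno
    apply b.ne_zero j
    apply eq_zero_of_forall_sympForm_right
    intro w
    have h4 : ∀ l, sympForm n F (b j) (b l) = 0 := by
      intro l
      by_cases hl : l = j
      · subst hl; exact sympForm_self _
      · exact horth j l (hno l hl)
    have h5 : sympBilin n F (b j) = 0 := by
      apply b.ext
      intro l
      exact h4 l
    have h6 := LinearMap.congr_fun h5 w
    exact h6
  have h4 := two_mul_card_image_le c h3
  rw [Fintype.card_fin] at h4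
  exact (card_le_of_injective ρ hρ b c hc hc1).trans (Nat.pow_le_pow_right (by norm_num) (by omega))

/-- the 2-part of the order of the symplectic group -/
theorem two_part_sp [Fintype F] (hF : Odd (Fintype.card F)) (n : ℕ) :
    (Nat.card (Matrix.symplecticGroup (Fin n) F)).factorization 2 =
      n * (Nat.card (Matrix.SpecialLinearGroup (Fin 2) F)).factorization 2 +
        (Nat.card (Equiv.Perm (Fin n))).factorization 2 := by
  have hq1 : 1 < Fintype.card F := Fintype.one_lt_card
  have h0 : ∀ i, Fintype.card F ^ (2 * (i + 1)) - 1 ≠ 0 := by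
    intro i
    have : 1 < Fintype.card F ^ (2 * (i + 1)) := Nat.one_lt_pow (by omega) hq1
    omega
  have h1 : v2 (Nat.card (Matrix.SpecialLinearGroup (Fin 2) F)) = v2 (Fintype.card F ^ 2 - 1) := by
    rw [Cfsg.Agent.ClassicalGeometry.PSL2Basic.card_SL2, v2_mul (by omega) (h0 0), v2_odd hF, zero_add]
  have h2 : v2 (Nat.card (Equiv.Perm (Fin n))) = ∑ i ∈ Finset.range n, v2 (i + 1) := by
    rw [Nat.card_perm, Nat.card_eq_fintype_card (α := Fin n), Fintype.card_fin]
    induction n with
    | zero => simp [v2]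
    | succ n ih =>
      rw [Nat.factorial_succ, v2_mul (by omega) (Nat.factorial_ne_zero n), Finset.sum_range_succ, ih, add_comm]
  change v2 _ = n * v2 _ + v2 _
  rw [h1, h2, Cfsg.Agent.LieClassical.SympCount.card_symplecticGroup,
    v2_mul (pow_ne_zero _ (by omega)) (Finset.prod_ne_zero_iff.2 fun i _ => h0 i), v2_odd hF.pow, zero_add,
    v2_prod _ fun i _ => h0 i]
  have h3 : ∀ i ∈ Finset.range n, v2 (Fintype.card F ^ (2 * (i + 1)) - 1) = v2 (Fintype.card F ^ 2 - 1) + v2 (i + 1) :=
    fun i _ => v2_pow_sub_one_even hF hq1 (by omega)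
  rw [Finset.sum_congr rfl h3, Finset.sum_add_distrib, Finset.sum_const, Finset.card_range, smul_eq_mul]

/-- **Lower bound.** -/
theorem lower_sp [Fintype F] (hF : Odd (Fintype.card F)) (n : ℕ) (S : Sylow 2 (Matrix.symplecticGroup (Fin n) F)) :
    Lower S n := by
  classical
  have hp : Fact (Nat.Prime 2) := ⟨Nat.prime_two⟩
  have two : (2 : F) ≠ 0 := two_of_odd hF
  have P : Sylow 2 (Matrix.SpecialLinearGroup (Fin 2) F) := default
  have T : Sylow 2 (Equiv.Perm (Fin n)) := default
  set D : Subgroup (Matrix.SpecialLinearGroup (Fin 2) F) := Subgroup.zpowers (-1) with hD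
  have hsq : (-1 : Matrix.SpecialLinearGroup (Fin 2) F) * -1 = 1 := by rw [neg_mul_neg, one_mul]
  have hDc : ∀ z ∈ D, ∀ g, g * z = z * g := by
    intro z hz g
    rcases mem_zpowers_of_sq hsq hz with rfl | rfl
    · rw [one_mul, mul_one]
    · rw [mul_neg, neg_mul, one_mul, mul_one]
  have hD2 : ∀ z ∈ D, z * z = 1 := by
    intro z hz
    rcases mem_zpowers_of_sq hsq hz with rfl | rfl
    · rw [one_mul]
    · exact hsq
  have hDP : D ≤ (P : Subgroup (Matrix.SpecialLinearGroup (Fin 2) F)) := by
    have hn : D.Normal := ⟨fun z hz g => by rw [hDc z hz, mul_inv_cancel_right]; exact hz⟩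
    have hDp : IsPGroup 2 D := fun z => ⟨1, Subtype.ext (by rw [pow_one, pow_two]; exact hD2 z.1 z.2)⟩
    exact hDp.le_sylow_of_normal P
  have hne : (-1 : Matrix.SpecialLinearGroup (Fin 2) F) ≠ 1 := by
    intro h
    have h1 := congrArg (fun A : Matrix.SpecialLinearGroup (Fin 2) F => A 0 0) h
    apply neg_one_ne two
    apply Units.ext
    simpa using h1
  set W : Subgroup (Matrix.symplecticGroup (Fin n) F) := Wr (P : Subgroup _) (T : Subgroup (Equiv.Perm (Fin n))) with hW
  have hWp : IsPGroup 2 W := isPGroup_wr P.2 T.2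
  have hWc : (Nat.card W).factorization 2 = (Nat.card (Matrix.symplecticGroup (Fin n) F)).factorization 2 := by
    apply le_antisymm
    · exact (Nat.factorization_le_iff_dvd Nat.card_pos.ne' Nat.card_pos.ne').2 (Subgroup.card_subgroup_dvd_card W) 2
    · obtain ⟨k, hk⟩ := hWp.exists_card_eq
      have h1 := card_wr_ge (P : Subgroup (Matrix.SpecialLinearGroup (Fin 2) F)) (T : Subgroup (Equiv.Perm (Fin n)))
      have h2 : Nat.card (P : Subgroup (Matrix.SpecialLinearGroup (Fin 2) F)) = _ := P.card_eq_multiplicity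
      have h3 : Nat.card (T : Subgroup (Equiv.Perm (Fin n))) = _ := T.card_eq_multiplicity
      rw [h2, h3, ← hW, hk, ← pow_mul, ← pow_add] at h1
      have h4 := (Nat.pow_le_pow_iff_right (by norm_num : 1 < 2)).1 h1
      rw [hk, Nat.Prime.factorization_pow Nat.prime_two, Finsupp.single_eq_same, two_part_sp hF n]
      rw [mul_comm]
      exact h4
  set E : Subgroup (Matrix.symplecticGroup (Fin n) F) := (Subgroup.pi Set.univ (fun _ : Fin n => D)).map blk with hE
  have hEN : ∀ w : Matrix.symplecticGroup (Fin n) F, (∀ e ∈ E, w * e * w⁻¹ ∈ E) → (∀ e ∈ E, w⁻¹ * e * w ∈ E) →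
      w ∈ Subgroup.normalizer (E : Set (Matrix.symplecticGroup (Fin n) F)) := by
    intro w h1 h2
    rw [Subgroup.mem_normalizer_iff]
    intro h
    refine ⟨fun hh => h1 h hh, fun hh => ?_⟩
    have := h2 _ hh
    have e1 : w⁻¹ * (w * h * w⁻¹) * w = h := by group
    rwa [e1] at this
  have hpi : ∀ g : Fin n → Matrix.SpecialLinearGroup (Fin 2) F, ∀ e ∈ E, blk g * e * (blk g)⁻¹ ∈ E := by
    rintro g _ ⟨d, hd, rfl⟩
    refine ⟨d, hd, ?_⟩
    rw [← map_inv, ← map_mul, ← map_mul]
    congr 1
    funext i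
    change d i = g i * d i * (g i)⁻¹
    rw [hDc _ (hd i (Set.mem_univ i)), mul_inv_cancel_right]
  have hpm : ∀ σ : Equiv.Perm (Fin n), ∀ e ∈ E, pmh σ * e * (pmh σ)⁻¹ ∈ E := by
    rintro σ _ ⟨d, hd, rfl⟩
    rw [pmh_blk]
    exact ⟨_, fun i _ => hd _ (Set.mem_univ _), rfl⟩
  have hWN : W ≤ Subgroup.normalizer (E : Set (Matrix.symplecticGroup (Fin n) F)) := by
    rw [hW]
    refine sup_le ?_ ?_
    · rintro _ ⟨g, -, rfl⟩
      refine hEN _ (hpi g) ?_
      have := hpi g⁻¹
      rw [map_inv, inv_inv] at this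
      exact this
    · rintro _ ⟨σ, -, rfl⟩
      refine hEN _ (hpm σ) ?_
      have := hpm σ⁻¹
      rw [map_inv, inv_inv] at this
      exact this
  refine lower_of W E ?_ ?_ ?_ hWc ?_ S
  · rintro _ ⟨d, hd, rfl⟩
    exact blk_mem fun i => hDP (hd i (Set.mem_univ i))
  · intro w hw e he
    exact (Subgroup.mem_normalizer_iff.1 (hWN hw) e).1 he
  · rw [elemAb_iff]
    constructor
    · rintro _ ⟨d, hd, rfl⟩ _ ⟨d', hd', rfl⟩
      rw [← map_mul, ← map_mul]
      congr 1
      funext i
      exact hDc _ (hd' i (Set.mem_univ i)) _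
    · rintro _ ⟨d, hd, rfl⟩
      rw [← map_mul]
      have : d * d = 1 := funext fun i => hD2 _ (hd i (Set.mem_univ i))
      rw [this, map_one]
  · rw [hE, Subgroup.card_map_of_injective blk_injective]
    let f : (Fin n → D) → Subgroup.pi Set.univ (fun _ : Fin n => D) := fun g => ⟨fun i => g i, fun i _ => (g i).2⟩
    have hf : Function.Injective f := by
      intro g g' h
      funext i
      exact Subtype.ext (congrFun (congrArg Subtype.val h) i)
    have h1 := Nat.card_le_card_of_injective f hf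
    rwa [Nat.card_fun, Nat.card_eq_fintype_card (α := Fin n), Fintype.card_fin, hD, card_zpowers_of_sq hsq hne] at h1

end Cfsg.Agent.H100.SpTwo
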